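import Cfsg.Agent.S3908
import Cfsg.Agent.H3.Taussky
import Cfsg.Agent.H3.DQ
import Cfsg.Agent.H3.Cover
import Cfsg.Agent.H3.ClassCount
import Cfsg.Agent.H5.PiClosed
import Cfsg.Agent.H5.Real
import Cfsg.Agent.H6.NilpHall
import Cfsg.Agent.H1.Generation

/-! Finite groups in which abelian subgroups of equal order are conjugate, I: quotients. -/

namespace Cfsg.Agent.H3

open Subgroup Cfsg
open scoped commutatorElement

universe u

variable {G : Type*} [Group G]

/-- any two abelian subgroups of the same order are conjugate -/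
def BG (G : Type*) [Group G] : Prop :=
  ∀ A B : Subgroup G, IsMulCommutative A → IsMulCommutative B → Nat.card A = Nat.card B →
    ∃ g : G, B = A.map (MulAut.conj g).toMonoidHom

theorem BG.exists_conj_mem_zpowers (hB : BG G) {a m : G} (h : orderOf m = orderOf a) :
    ∃ g : G, g * a * g⁻¹ ∈ zpowers m := by
  obtain ⟨g, hg⟩ := hB (zpowers a) (zpowers m) inferInstance inferInstance
    (by rw [Nat.card_zpowers, Nat.card_zpowers, h])
  exact ⟨g, hg ▸ mem_map_of_mem _ (mem_zpowers a)⟩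

theorem BG.mem_of_orderOf_eq (hB : BG G) {M : Subgroup G} [hM : M.Normal] {a m : G} (hm : m ∈ M)
    (h : orderOf m = orderOf a) : a ∈ M := by
  obtain ⟨g, hg⟩ := hB.exists_conj_mem_zpowers h
  simpa [mul_assoc] using hM.conj_mem _ (zpowers_le.2 hm hg) g⁻¹

theorem BG.of_mulEquiv {H : Type*} [Group H] (hB : BG G) (e : G ≃* H) : BG H := by
  intro A B hA hB' h
  obtain ⟨g, hg⟩ := hB (A.map e.symm.toMonoidHom) (B.map e.symm.toMonoidHom) inferInstance
    inferInstance (by
      rw [card_map_of_injective e.symm.injective, card_map_of_injective e.symm.injective, h])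
  refine ⟨e g, ?_⟩
  ext x
  have := SetLike.ext_iff.1 hg (e.symm x)
  rw [H1.mem_map_conj, mem_map_equiv, mem_map_equiv] at this
  rw [H1.mem_map_conj]
  simpa using this

theorem exists_mem_orderOf_eq_prime [Finite G] {p : ℕ} [Fact p.Prime] {M : Subgroup G}
    (hM : IsPGroup p M) (h : M ≠ ⊥) : ∃ m ∈ M, orderOf m = p := by
  obtain ⟨⟨x, hx⟩, hx1⟩ := (ne_bot_iff_exists_ne_one).1 h
  obtain ⟨k, hk⟩ := exists_pow_orderOf_eq_prime hM hx1
  exact ⟨x ^ k, pow_mem hx k, by rw [← hk, ← orderOf_coe]; rfl⟩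

/-- a normal subgroup containing an element of order `p` contains each `p`-subgroup of exponent
`p` -/
theorem BG.le_of_exponent (hB : BG G) {p : ℕ} [Fact p.Prime] {M P : Subgroup G} [M.Normal]
    {m : G} (hm : m ∈ M) (hmo : orderOf m = p) (hP : ∀ x ∈ P, x ^ p = 1) : P ≤ M := fun x hx => by
  by_cases h1 : x = 1
  · exact h1 ▸ one_mem _
  · exact hB.mem_of_orderOf_eq hm (hmo.trans (orderOf_eq_prime (hP x hx) h1).symm)

theorem BG.pow_eq_one_of_elementary [Finite G] (hB : BG G) {p : ℕ} [hp : Fact p.Prime]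
    {E P : Subgroup G} (hP : IsPGroup p P) (hEP : E ≤ P) (hE : IsElementaryAbelian p E)
    (hc : p < Nat.card E) : ∀ x ∈ P, x ^ p = 1 := by
  refine (S3908.key hB P hP).resolve_left fun h => ?_
  have e := subgroupOfEquivOfLe hEP
  refine not_isCyclic_of_isElementaryAbelian hp.out hE hc ?_
  haveI := hE.1
  haveI := h (E.subgroupOf P) ⟨inferInstance, fun a ha => Subtype.ext (hE.2 a ha)⟩
  exact isCyclic_of_surjective e e.surjective

theorem BG.eq_of_elementary [Finite G] (hB : BG G) {p : ℕ} [hp : Fact p.Prime]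
    {M : Subgroup G} [M.Normal] (hE : IsElementaryAbelian p M) (hc : p < Nat.card M)
    (P : Sylow p G) : (P : Subgroup G) = M := by
  have hM := isPGroup_of_isElementaryAbelian hE
  have h1 := hM.le_sylow_of_normal P
  obtain ⟨m, hm, hmo⟩ := exists_mem_orderOf_eq_prime hM (fun e => by
    rw [e, card_bot] at hc; exact hp.out.one_lt.not_gt hc)
  exact le_antisymm (hB.le_of_exponent hm hmo
    (hB.pow_eq_one_of_elementary P.isPGroup' h1 hE hc)) h1

theorem sq_zpow_mul_of_quaternion {x y : G} (h : y * x * y⁻¹ = x⁻¹) (i : ℤ) :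
    (x ^ i * y) ^ 2 = y ^ 2 := by
  simpa [Finset.sum_range_succ] using zpow_mul_pow_of_conj (e := -1) (by rw [h, zpow_neg_one]) i 2

theorem orderOf_half {x : G} {n : ℕ} (hn : 1 ≤ n) (hx : orderOf x = 2 ^ n) :
    orderOf (x ^ 2 ^ (n - 1)) = 2 := by
  obtain ⟨k, rfl⟩ := Nat.exists_eq_add_of_le' hn
  rw [orderOf_pow_of_dvd (by positivity) (hx ▸ pow_dvd_pow 2 (by omega)), hx, Nat.add_sub_cancel,
    pow_succ, Nat.mul_div_cancel_left _ (by positivity)]

theorem orderOf_eq_four_of_sq {g : G} (h : orderOf (g ^ 2) = 2) : orderOf g = 4 := by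
  haveI := Fact.mk Nat.prime_two
  refine orderOf_eq_prime_pow (p := 2) (n := 1) (fun e => ?_) ?_
  · rw [pow_one] at e; rw [e, orderOf_one] at h; omega
  · rw [show 2 ^ (1 + 1) = 2 * 2 from rfl, pow_mul]
    have := pow_orderOf_eq_one (g ^ 2)
    rwa [h] at this

/-- In a generalized quaternion group given by generators the elements outside `⟨x⟩` have order
four. -/
theorem orderOf_eq_four_of_not_mem {x y g : G} {n : ℕ} (hn : 1 ≤ n) (hx : orderOf x = 2 ^ n)
    (hidx : (zpowers x).index = 2) (hy : y ∉ zpowers x) (h1 : y ^ 2 = x ^ 2 ^ (n - 1))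
    (h2 : y * x * y⁻¹ = x⁻¹) (hg : g ∉ zpowers x) : orderOf g = 4 := by
  obtain ⟨i, rfl⟩ := exists_eq_zpow_mul_of_index_two hidx hy hg
  exact orderOf_eq_four_of_sq (by rw [sq_zpow_mul_of_quaternion h2, h1, orderOf_half hn hx])

theorem card_eq_eight_core {H : Type*} [Group H] [Finite H] [Group.IsSolvable H]
    (hO : pPrimeCore 2 H = ⊥) (S : Sylow 2 H)
    (h4 : ∀ (N : Subgroup H) [N.Normal], ∀ a ∈ N, orderOf a = 4 → ∀ b, orderOf b = 4 → b ∈ N)
    (hS : ∀ A : Subgroup S, IsElementaryAbelian 2 A → IsCyclic A) (hnc : ¬ IsCyclic S) :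
    Nat.card S = 8 := by
  haveI := Fact.mk Nat.prime_two
  obtain ⟨-, n, x, y, hn, hx, hidx, hy, h1, h2⟩ :=
    (abelian_cyclic_cases S.isPGroup' hS).resolve_left hnc
  have ho := fun g hg => orderOf_eq_four_of_not_mem (g := g) (by omega) hx hidx hy h1 h2 hg
  have hyo : orderOf (y : H) = 4 := by rw [orderOf_coe, ho y hy]
  have hR := L.pCore_le_sylow S
  have h3 : ∃ a ∈ pCore 2 H, orderOf a = 4 := by
    by_contra! hc
    refine hc y (L.centralizer_pCore_le Nat.prime_two (L.isPSolvable_of_isSolvable Nat.prime_two)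
      hO fun r hr => ?_) hyo
    have h5 : (⟨r, hR hr⟩ : S) ∈ zpowers x := by
      by_contra h5
      exact hc r hr (by rw [← ho _ h5, orderOf_mk])
    have h6 : (⟨r, hR hr⟩ : S) ^ 2 = 1 := by
      by_contra h6
      obtain ⟨k, hk⟩ := exists_pow_orderOf_eq_prime S.isPGroup' h6
      refine hc (r ^ k) (pow_mem hr k) (orderOf_eq_four_of_sq ?_)
      rw [← orderOf_coe, ← pow_mul, mul_comm, pow_mul] at hk
      exact hk
    obtain ⟨i, hi⟩ := mem_zpowers_iff.1 h5
    have h7 := conj_zpow_of_conj (e := -1) (g := y) (x := x) (by rw [h2, zpow_neg_one]) i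
    rw [neg_one_mul, zpow_neg, hi, mul_inv_eq_iff_eq_mul,
      inv_eq_of_mul_eq_one_right ((sq _).symm.trans h6)] at h7
    exact (congrArg Subtype.val h7).symm
  obtain ⟨a, ha, hao⟩ := h3
  have h5 := h4 _ a ha hao
  have hyR := h5 y hyo
  have hxR : (x : H) ∈ pCore 2 H := by
    have := h5 (x * y : S) (by
      rw [orderOf_coe]; exact ho _ fun h => hy ((mul_mem_cancel_left (mem_zpowers x)).1 h))
    exact (mul_mem_cancel_right hyR).1 this
  have hcard := (zpowers x).index_mul_card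
  rw [hidx, Nat.card_zpowers, hx] at hcard
  by_contra h8
  have hn3 : 3 ≤ n := by
    by_contra h
    exact h8 (by rw [← hcard, show n = 2 by omega]; rfl)
  haveI : (zpowers (x : H)).Normal := by
    rw [← normalizer_eq_top_iff, eq_top_iff]
    intro g _
    refine H5.mem_normalizer_zpowers_of_conj_mem ?_
    have h6 : g * x * g⁻¹ ∈ (S : Subgroup H) := hR (Normal.conj_mem inferInstance _ hxR g)
    have h7 : (⟨_, h6⟩ : S) ∈ zpowers x := by
      by_contra h7
      have h9 := ho _ h7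
      rw [orderOf_mk, ← orderOf_eq_of_isConj (isConj_iff.2 ⟨g, rfl⟩), orderOf_coe, hx] at h9
      have : 2 ^ 3 ≤ 2 ^ n := Nat.pow_le_pow_right two_pos hn3
      omega
    obtain ⟨i, hi⟩ := mem_zpowers_iff.1 h7
    exact ⟨i, congrArg Subtype.val hi⟩
  have h6 := h4 (zpowers (x : H)) (x ^ 2 ^ (n - 2)) (pow_mem (mem_zpowers _) _)
    (orderOf_eq_four_of_sq (by
      rw [← pow_mul, ← pow_succ, show n - 2 + 1 = n - 1 by omega]
      exact orderOf_half (by omega) (by rw [orderOf_coe, hx]))) y hyo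
  obtain ⟨i, hi⟩ := mem_zpowers_iff.1 h6
  exact hy ⟨i, Subtype.ext hi⟩

/-- In a solvable `B`-group a non-cyclic Sylow `2`-subgroup of rank one has order `8`. -/
theorem BG.card_eq_eight [Finite G] [Group.IsSolvable G] (hB : BG G) (S : Sylow 2 G)
    (hS : ∀ A : Subgroup S, IsElementaryAbelian 2 A → IsCyclic A) (hnc : ¬ IsCyclic S) :
    Nat.card S = 8 := by
  haveI := Fact.mk Nat.prime_two
  let O := pPrimeCore 2 G
  let T := S.mapSurjective (QuotientGroup.mk'_surjective O)
  have hinj : Function.Injective ((QuotientGroup.mk' O).subgroupMap S) := by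
    rw [injective_iff_map_eq_one]
    intro a ha
    obtain ⟨k, hk⟩ := H8.exists_orderOf_eq_pow_of_mem S.isPGroup' a.2
    exact Subtype.ext (H8.eq_one_of_orderOf_pow_of_coprime hk (Nat.Coprime.coprime_dvd_left
      (O.orderOf_dvd_natCard ((QuotientGroup.eq_one_iff _).1 (congrArg Subtype.val ha)))
      (L.coprime_card_pPrimeCore 2)))
  let e : S ≃* T := MulEquiv.ofBijective _ ⟨hinj, (QuotientGroup.mk' O).subgroupMap_surjective S⟩
  rw [Nat.card_congr e.toEquiv]
  refine card_eq_eight_core (L.pPrimeCore_quotient_pPrimeCore Nat.prime_two) T ?_ ?_ ?_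
  · intro N _ a ha hao b hbo
    have hc : (4 : ℕ).Coprime (Nat.card O) := (L.coprime_card_pPrimeCore 2).symm.pow_left 2
    obtain ⟨a, rfl, h1⟩ := H5.exists_lift_orderOf_eq O a (hao ▸ hc)
    obtain ⟨b, rfl, h2⟩ := H5.exists_lift_orderOf_eq O b (hbo ▸ hc)
    exact hB.mem_of_orderOf_eq (M := N.comap (QuotientGroup.mk' O)) ha (by rw [h1, h2, hao, hbo])
  · intro A hA
    haveI := hA.1
    haveI := hS (A.map e.symm.toMonoidHom) ⟨inferInstance, by
      rintro _ ⟨a, ha, rfl⟩
      rw [← map_pow, hA.2 a ha, map_one]⟩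
    exact (e.symm.subgroupMap A).isCyclic.2 this
  · exact fun h => hnc (isCyclic_of_surjective e.symm e.symm.surjective)

theorem map_mk'_map_conj (N : Subgroup G) [N.Normal] (A : Subgroup G) (g : G) :
    (A.map (MulAut.conj g).toMonoidHom).map (QuotientGroup.mk' N) =
      (A.map (QuotientGroup.mk' N)).map (MulAut.conj (QuotientGroup.mk' N g)).toMonoidHom := by
  rw [map_map, map_map]
  congr 1

theorem commute_of_map_mk' {N A : Subgroup G} [N.Normal]
    (h : IsMulCommutative (A.map (QuotientGroup.mk' N))) {a b : G} (ha : a ∈ A) (hb : b ∈ A) :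
    ⁅a, b⁆ ∈ N :=
  (H7.commutatorElement_mem_iff_commute N a b).2
    (mul_comm_of_mem h (mem_map_of_mem _ ha) (mem_map_of_mem _ hb))

theorem isMulCommutative_of_map_mk' {N A : Subgroup G} [N.Normal]
    (h : IsMulCommutative (A.map (QuotientGroup.mk' N))) (hd : A ⊓ N = ⊥) :
    IsMulCommutative A :=
  isMulCommutative_of_forall fun a ha b hb => by
    have : ⁅a, b⁆ ∈ A ⊓ N := ⟨by
      rw [commutatorElement_def]
      exact A.mul_mem (A.mul_mem (A.mul_mem ha hb) (A.inv_mem ha)) (A.inv_mem hb),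
      commute_of_map_mk' h ha hb⟩
    rwa [hd, mem_bot, commutatorElement_eq_one_iff_mul_comm] at this

theorem BG.exists_conj_quot_of_coprime [Finite G] (hB : BG G) (M : Subgroup G) [M.Normal]
    {A B : Subgroup (G ⧸ M)} (hA : IsMulCommutative A) (hB' : IsMulCommutative B)
    (h : Nat.card A = Nat.card B) (hc : (Nat.card M).Coprime (Nat.card A)) :
    ∃ g, B = A.map (MulAut.conj g).toMonoidHom := by
  obtain ⟨A, rfl, h1, h2⟩ := H5.exists_lift_subgroup_of_coprime M A hc
  obtain ⟨B, rfl, h3, h4⟩ := H5.exists_lift_subgroup_of_coprime M B (h ▸ hc)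
  obtain ⟨g, rfl⟩ := hB A B (isMulCommutative_of_map_mk' hA h1)
    (isMulCommutative_of_map_mk' hB' h3) (by rw [h2, h4, h])
  exact ⟨_, map_mk'_map_conj M A g⟩

theorem BG.zpowers_eq_of_card [Finite G] (hB : BG G) {p : ℕ} [Fact p.Prime] {M : Subgroup G}
    [M.Normal] (hM : Nat.card M = p) {a : G} (ha : orderOf a = p) : zpowers a = M := by
  obtain ⟨m, hm, hmo⟩ := exists_mem_orderOf_eq_prime (p := p) (M := M)
    (IsPGroup.of_card (n := 1) (by rw [hM, pow_one])) fun e => by
      rw [e, card_bot] at hM; exact (Fact.out : p.Prime).one_lt.ne hM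
  exact eq_of_le_of_card_ge (zpowers_le.2 (hB.mem_of_orderOf_eq hm (hmo.trans ha.symm)))
    (by rw [hM, Nat.card_zpowers, ha])

theorem BG.isCyclic_of_elementary [Finite G] (hB : BG G) {p : ℕ} [Fact p.Prime] {M : Subgroup G}
    [M.Normal] (hM : Nat.card M = p) (S : Subgroup G) (A : Subgroup S)
    (hA : IsElementaryAbelian p A) : IsCyclic A := by
  haveI : IsCyclic M := isCyclic_of_prime_card hM
  have : A.map S.subtype ≤ M := by
    rintro _ ⟨a, ha, rfl⟩
    by_cases h1 : a = 1
    · rw [h1]; exact one_mem _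
    · exact hB.zpowers_eq_of_card hM (a := a) (by
        rw [orderOf_coe]; exact orderOf_eq_prime (hA.2 a ha) h1) ▸ mem_zpowers _
  exact (A.equivMapOfInjective _ S.subtype_injective).isCyclic.2 (isCyclic_of_le this)

/-- decomposition of the preimage of an abelian subgroup -/
theorem BG.exists_decomp [Finite G] (hB : BG G) {p : ℕ} [hp : Fact p.Prime] {M : Subgroup G}
    [M.Normal] (hM : Nat.card M = p) {A : Subgroup (G ⧸ M)} (hA : IsMulCommutative A)
    (hd : p ∣ Nat.card A) :
    ∃ P K : Subgroup G, IsPGroup p P ∧ (Nat.card K).Coprime p ∧ K ≤ centralizer (P : Set G) ∧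
      IsMulCommutative K ∧ P ⊔ K = A.comap (QuotientGroup.mk' M) ∧
      Nat.card P * Nat.card K = Nat.card A * p := by
  set X := A.comap (QuotientGroup.mk' M) with hX
  have hXA : X.map (QuotientGroup.mk' M) = A :=
    map_comap_eq_self_of_surjective (QuotientGroup.mk'_surjective M) A
  obtain ⟨⟨u', hu'⟩, hu⟩ := exists_prime_orderOf_dvd_card' (G := A) p hd
  obtain ⟨u, rfl⟩ := QuotientGroup.mk'_surjective M u'
  rw [orderOf_mk] at hu
  have hMp : ∀ m ∈ M, m ^ p = 1 := fun m hm => by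
    have := pow_card_eq_one' (x := (⟨m, hm⟩ : M))
    rw [hM] at this
    exact congrArg Subtype.val this
  have huM : u ∉ M := fun h => by
    rw [show QuotientGroup.mk' M u = 1 from (QuotientGroup.eq_one_iff u).2 h, orderOf_one] at hu
    exact hp.out.one_lt.ne hu
  have hup : u ^ p ∈ M := by
    rw [← QuotientGroup.eq_one_iff, QuotientGroup.mk_pow, ← hu]
    exact pow_orderOf_eq_one (QuotientGroup.mk' M u)
  have hup1 : u ^ p ≠ 1 := fun h => huM (hB.zpowers_eq_of_card hM
    (orderOf_eq_prime h fun e => huM (e ▸ one_mem _)) ▸ mem_zpowers u)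
  have hMu := hB.zpowers_eq_of_card hM (orderOf_eq_prime (hMp _ hup) hup1)
  have hc : X ≤ centralizer (M : Set G) := by
    intro a ha
    rw [← hMu, mem_centralizer_zpowers_iff, ← conj_pow]
    have h1 := commute_of_map_mk' (hXA ▸ hA) ha (show u ∈ X from hu')
    have h2 : Commute ⁅a, u⁆ u := by
      obtain ⟨k, hk⟩ := mem_zpowers_iff.1 (hMu ▸ h1)
      rw [← hk]
      exact ((Commute.refl u).pow_left p).zpow_left k
    rw [show a * u * a⁻¹ = ⁅a, u⁆ * u by rw [commutatorElement_def]; group, h2.mul_pow,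
      hMp _ h1, one_mul]
  have hn : Group.IsNilpotent X := L.isNilpotent_of_map_mk'_of_le_centralizer M X hc
    (by rw [hXA]; exact L.isNilpotent_of_isMulCommutative A)
  obtain ⟨P, K, hPX, hKX, hP, hK, hKP, hdec, hcard, -⟩ := H6.exists_decomp_of_isNilpotent hn hp.out
  refine ⟨P, K, hP, hK, hKP, ?_, le_antisymm (sup_le hPX hKX) fun x hx => ?_, ?_⟩
  · refine isMulCommutative_of_map_mk' (N := M) (isMulCommutative_of_forall fun a ha b hb =>
      mul_comm_of_mem hA (hXA ▸ map_mono hKX ha) (hXA ▸ map_mono hKX hb))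
      (H1.inf_eq_bot_of_coprime' (hM ▸ hK))
  · obtain ⟨a, ha, b, hb, rfl⟩ := hdec x hx
    exact mul_mem_sup ha hb
  · rw [hcard, hX, card_comap_mk', hM]

theorem isMulCommutative_sup {P K : Subgroup G} (hP : IsMulCommutative P)
    (hK : IsMulCommutative K) (h : K ≤ centralizer (P : Set G)) :
    IsMulCommutative (P ⊔ K : Subgroup G) := by
  rw [← le_centralizer_iff_isMulCommutative] at hP hK ⊢
  refine sup_le ?_ ?_
  · rw [le_centralizer_iff]
    exact sup_le hP h
  · rw [le_centralizer_iff]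
    exact sup_le (le_centralizer_iff.1 h) hK

theorem eq_of_mul_eq_mul_of_coprime {p a b c d : ℕ} {i j : ℕ} (ha : a = p ^ i) (hc : c = p ^ j)
    (hb : b.Coprime p) (hd : d.Coprime p) (h : a * b = c * d) (hp : 0 < p) : a = c ∧ b = d := by
  subst ha hc
  have h1 : b = d := Nat.dvd_antisymm
    ((hb.pow_right j).dvd_of_dvd_mul_left (h ▸ dvd_mul_left _ _))
    ((hd.pow_right i).dvd_of_dvd_mul_left (h ▸ dvd_mul_left _ _))
  subst h1
  rcases Nat.eq_zero_or_pos b with rfl | hb0
  · rw [Nat.coprime_zero_left] at hb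
    simp [hb]
  · exact ⟨Nat.eq_of_mul_eq_mul_right hb0 h, rfl⟩

theorem BG.quotient_of_card [Finite G] (hB : BG G) {p : ℕ} [hp : Fact p.Prime] {M : Subgroup G}
    [M.Normal] (hM : Nat.card M = p)
    (h8 : ∀ P : Subgroup G, IsPGroup p P → ¬ IsMulCommutative P → ¬ p ∣ P.index) :
    BG (G ⧸ M) := by
  intro A B hA hB' h
  by_cases hd : p ∣ Nat.card A
  swap
  · exact hB.exists_conj_quot_of_coprime M hA hB' h (hM ▸ hp.out.coprime_iff_not_dvd.2 hd)
  obtain ⟨P, K, hP, hK, hKP, hKc, h1, h2⟩ := hB.exists_decomp hM hA hd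
  obtain ⟨Q, L, hQ, hL, hLQ, hLc, h3, h4⟩ := hB.exists_decomp hM hB' (h ▸ hd)
  obtain ⟨i, hi⟩ := IsPGroup.iff_card.1 hP
  obtain ⟨j, hj⟩ := IsPGroup.iff_card.1 hQ
  obtain ⟨h5, h6⟩ := eq_of_mul_eq_mul_of_coprime hi hj hK hL (by rw [h2, h4, h]) hp.out.pos
  suffices h7 : ∃ g, Q ⊔ L = (P ⊔ K).map (MulAut.conj g).toMonoidHom by
    obtain ⟨g, hg⟩ := h7
    refine ⟨QuotientGroup.mk' M g, ?_⟩
    rw [← map_comap_eq_self_of_surjective (QuotientGroup.mk'_surjective M) B, ← h3, hg, h1,
      map_mk'_map_conj, map_comap_eq_self_of_surjective (QuotientGroup.mk'_surjective M)]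
  by_cases hc : IsMulCommutative P ∧ IsMulCommutative Q
  · exact hB _ _ (isMulCommutative_sup hc.1 hKc hKP) (isMulCommutative_sup hc.2 hLc hLQ)
      (by rw [h1, h3, card_comap_mk', card_comap_mk', h])
  have hidx : P.index = Q.index := by
    have := P.card_mul_index.trans Q.card_mul_index.symm
    rw [h5] at this
    exact Nat.eq_of_mul_eq_mul_left Nat.card_pos this
  have hQi : ¬ p ∣ Q.index := by
    by_cases hc1 : IsMulCommutative P
    · exact h8 Q hQ fun h => hc ⟨hc1, h⟩
    · exact hidx ▸ h8 P hP hc1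
  obtain ⟨g, rfl⟩ := hB K L hKc hLc h6
  obtain ⟨c, hcL, hc⟩ := H1.exists_conj_le_sylow (H := centralizer
    ((K.map (MulAut.conj g).toMonoidHom : Subgroup G) : Set G)) hQ
    (fun h => hQi (h.trans (relIndex_dvd_index_of_le (le_centralizer_iff.1 hLQ))))
    (Q := P.map (MulAut.conj g).toMonoidHom)
    (by rw [H1.centralizer_map_conj]; exact map_mono (le_centralizer_iff.1 hKP)) (hP.map _)
  refine ⟨c * g, ?_⟩
  rw [← H1.map_conj_map_conj, Subgroup.map_sup, Subgroup.map_sup,
    H1.map_conj_eq_self_iff.2 (centralizer_le_normalizer _ hcL),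
    eq_of_le_of_card_ge hc (by rw [H1.card_map_conj, H1.card_map_conj, h5])]

theorem BG.quotient_of_elementary [Finite G] (hB : BG G) {p : ℕ} [hp : Fact p.Prime]
    {M : Subgroup G} [M.Normal] (hE : IsElementaryAbelian p M) (hM1 : M ≠ ⊥)
    (h2 : p ≠ 2 ∨ Group.IsSolvable G) : BG (G ⧸ M) := by
  obtain ⟨k, hk⟩ := IsPGroup.iff_card.1 (isPGroup_of_isElementaryAbelian hE)
  by_cases hc : p < Nat.card M
  · obtain ⟨P⟩ : Nonempty (Sylow p G) := inferInstance
    have h1 := P.not_dvd_index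
    rw [hB.eq_of_elementary hE hc P] at h1
    intro A B hA hB' h
    refine hB.exists_conj_quot_of_coprime M hA hB' h ?_
    rw [hk]
    exact (hp.out.coprime_iff_not_dvd.2 fun h => h1 (h.trans A.card_subgroup_dvd_card)).pow_left k
  have hM : Nat.card M = p := by
    refine le_antisymm (not_lt.1 hc) ?_
    obtain ⟨m, hm, hmo⟩ := exists_mem_orderOf_eq_prime (isPGroup_of_isElementaryAbelian hE) hM1
    rw [← hmo, ← Nat.card_zpowers]
    exact card_le_of_le (zpowers_le.2 hm)
  refine hB.quotient_of_card hM fun P hP hna => ?_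
  obtain ⟨S, hS⟩ := hP.exists_le_sylow
  have hS1 := hB.isCyclic_of_elementary hM S
  have hnc : ¬ IsCyclic S := fun h => by
    haveI := isCyclic_of_le hS
    exact hna inferInstance
  obtain rfl : p = 2 := ((abelian_cyclic_cases S.isPGroup' hS1).resolve_left hnc).1
  haveI := h2.resolve_left (fun h => h rfl)
  obtain ⟨j, hj⟩ := IsPGroup.iff_card.1 hP
  have h3 := three_le_of_not_isMulCommutative hj hna
  rw [eq_of_le_of_card_ge hS (by
    rw [hB.card_eq_eight S hS1 hnc, hj]; exact Nat.pow_le_pow_right (n := 2) two_pos h3)]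
  exact S.not_dvd_index

theorem BG.of_surjective_aux (G : Type u) [Group G] [Finite G] : BG G →
    ∀ (H : Type u) [Group H] (f : G →* H), Function.Surjective f → Group.IsSolvable f.ker →
      (Odd (Nat.card f.ker) ∨ Group.IsSolvable G) → BG H := by
  refine L.induction_on_card (P := fun G _ _ => BG G →
    ∀ (H : Type u) [Group H] (f : G →* H), Function.Surjective f → Group.IsSolvable f.ker →
      (Odd (Nat.card f.ker) ∨ Group.IsSolvable G) → BG H) G ?_
  intro G _ _ ih hB H _ f hf hs h2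
  by_cases hk : f.ker = ⊥
  · exact hB.of_mulEquiv (MulEquiv.ofBijective f ⟨(MonoidHom.ker_eq_bot_iff f).1 hk, hf⟩)
  obtain ⟨M, p, hM, hMk, hp, hE⟩ := L.exists_isMinNormal_isElementaryAbelian_le f.ker hk
  haveI := hM.1
  haveI := Fact.mk hp
  have hker : (QuotientGroup.lift M f hMk).ker = f.ker.map (QuotientGroup.mk' M) :=
    QuotientGroup.ker_lift M f hMk
  refine ih (G ⧸ M) (L.card_quotient_lt M hM.2.1)
    (hB.quotient_of_elementary hE hM.2.1 (h2.imp_left ?_)) H
    (QuotientGroup.lift M f hMk) (QuotientGroup.lift_surjective_of_surjective M f hf hMk)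
    (hker ▸ L.isSolvable_map _ _) (h2.imp (fun h => ?_) fun h => by haveI := h; infer_instance)
  · rintro h rfl
    obtain ⟨m, hm, hmo⟩ := exists_mem_orderOf_eq_prime (isPGroup_of_isElementaryAbelian hE) hM.2.1
    exact (Nat.not_even_iff_odd.2 h) (even_iff_two_dvd.2 (hmo ▸ orderOf_dvd_natCard _ (hMk hm)))
  · rw [hker]; exact h.of_dvd_nat (card_map_dvd _ _)

theorem BG.quotient [Finite G] (hB : BG G) (M : Subgroup G) [M.Normal] (hs : Group.IsSolvable M)
    (h2 : Odd (Nat.card M) ∨ Group.IsSolvable G) : BG (G ⧸ M) :=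
  BG.of_surjective_aux G hB _ (QuotientGroup.mk' M) (QuotientGroup.mk'_surjective M)
    (by rwa [QuotientGroup.ker_mk']) (by rwa [QuotientGroup.ker_mk'])

end Cfsg.Agent.H3
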