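import Mathlib
import Cfsg.Agent.H3.ClassCount

/-! Boundedness results: Schur-type bounds, subgroups of bounded index in boundedly generated
groups, and involutory automorphisms with few fixed points. -/

set_option autoImplicit false

namespace Cfsg.Agent.H3

open Subgroup

variable {G : Type*} [Group G]

/-- A group generated by at most `m` elements of order dividing `e` whose centre has index at most
`B` has bounded order. -/
theorem card_le_of_index_center [Finite G] (S : Finset G) (hS : closure (S : Set G) = ⊤)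
    {m e B : ℕ} (hm : S.card ≤ m) (he : e ≠ 0) (hSe : ∀ s ∈ S, s ^ e = 1)
    (hB : (center G).index ≤ B) : Nat.card G ≤ (B * e) ^ (B * m) * B := by
  have hi : (center G).index ≠ 0 := index_ne_zero_of_finite
  letI : CommGroup (center G) := { (center G).toGroup with mul_comm := mul_comm' }
  have h1 : ∀ g : G, (MonoidHom.transferCenterPow G g) ^ e = 1 := by
    intro g
    have : ⊤ ≤ ((powMonoidHom e : center G →* center G).comp
        (MonoidHom.transferCenterPow G)).ker := by
      rw [← hS, closure_le]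
      intro s hs
      change (MonoidHom.transferCenterPow G s) ^ e = 1
      rw [← map_pow, hSe s hs, map_one]
    exact this (mem_top g)
  have h2 : ∀ z : center G, z ^ ((center G).index * e) = 1 := by
    intro z
    rw [pow_mul, ← h1 z]
    rfl
  have h3 := card_dvd_exponent_pow_rank' (center G) h2
  have h4 : Group.rank (center G) ≤ B * m :=
    (rank_le_index_mul_rank (center G)).trans (Nat.mul_le_mul hB ((Group.rank_le hS).trans hm))
  have hpos : 0 < (center G).index * e := Nat.pos_of_ne_zero (mul_ne_zero hi he)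
  have h5 : Nat.card (center G) ≤ (B * e) ^ (B * m) :=
    (Nat.le_of_dvd (pow_pos hpos _) h3).trans ((Nat.pow_le_pow_right hpos h4).trans
      (Nat.pow_le_pow_left (Nat.mul_le_mul_right _ hB) _))
  rw [← (center G).card_mul_index]
  exact Nat.mul_le_mul h5 hB

/-- In a group generated by at most `m` elements the subgroups of index at most `B` contain a common
subgroup of bounded index. -/
theorem exists_index_le_forall_le [Finite G] (S : Finset G) (hS : closure (S : Set G) = ⊤)
    {m : ℕ} (hm : S.card ≤ m) (B : ℕ) :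
    ∃ K : Subgroup G, K.index ≤ B.factorial ^ (B.factorial ^ m) ∧
      ∀ H : Subgroup G, H.index ≤ B → K ≤ H := by
  classical
  let ρ : (G →* Equiv.Perm (Fin B)) → (S → Equiv.Perm (Fin B)) := fun φ s => φ s
  have hρ : Function.Injective ρ := by
    intro φ ψ h
    refine MonoidHom.eq_of_eqOn_dense hS fun s hs => ?_
    exact congrFun h ⟨s, hs⟩
  haveI : Finite (G →* Equiv.Perm (Fin B)) := Finite.of_injective ρ hρ
  haveI := Fintype.ofFinite (G →* Equiv.Perm (Fin B))
  refine ⟨⨅ φ : G →* Equiv.Perm (Fin B), φ.ker, (index_iInf_le _).trans ?_, ?_⟩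
  · have h1 : ∀ φ : G →* Equiv.Perm (Fin B), φ.ker.index ≤ B.factorial := by
      intro φ
      rw [index_ker]
      refine (Subgroup.card_le_card_group _).trans ?_
      rw [Nat.card_perm, Nat.card_eq_fintype_card, Fintype.card_fin]
    refine (Finset.prod_le_pow_card _ _ _ fun φ _ => h1 φ).trans ?_
    refine Nat.pow_le_pow_right (Nat.factorial_pos B) ?_
    rw [Finset.card_univ]
    refine (Fintype.card_le_of_injective ρ hρ).trans ?_
    rw [Fintype.card_fun, Fintype.card_perm, Fintype.card_fin, Fintype.card_coe]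
    exact Nat.pow_le_pow_right (Nat.factorial_pos B) hm
  · intro H hH
    haveI := Fintype.ofFinite (G ⧸ H)
    obtain ⟨e⟩ : Nonempty (G ⧸ H ↪ Fin B) := by
      rw [Function.Embedding.nonempty_iff_card_le, Fintype.card_fin, ← Nat.card_eq_fintype_card]
      exact hH
    refine (iInf_le _ ((Equiv.Perm.viaEmbeddingHom e).comp (MulAction.toPermHom G (G ⧸ H)))).trans ?_
    rw [← MonoidHom.comap_ker, (MonoidHom.ker_eq_bot_iff _).2
      (Equiv.Perm.viaEmbeddingHom_injective e), MonoidHom.comap_bot, ← normalCore_eq_ker]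
    exact H.normalCore_le

theorem card_le_card_inverted_mul [Finite G] (β : G ≃* G) (hβ : ∀ x, β (β x) = x) (A : Subgroup G)
    (hA : ∀ x ∈ A, β x ∈ A) :
    Nat.card A ≤ Nat.card {x // x ∈ A ∧ β x = x⁻¹} * Nat.card {x // β x = x} := by
  refine natCard_le_natCard_mul (α := A) (β := {x // x ∈ A ∧ β x = x⁻¹})
    (fun a => ⟨a * (β a)⁻¹, A.mul_mem a.2 (A.inv_mem (hA _ a.2)), by simp [hβ]⟩) _ ?_
  intro b
  by_cases h : ∃ a₀ : A, (a₀ : G) * (β a₀)⁻¹ = b
  · obtain ⟨a₀, h₀⟩ := h
    refine Nat.card_le_card_of_injective (fun a => ⟨(a₀ : G)⁻¹ * a.1, ?_⟩) ?_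
    · have h1 : (a.1 : G) * (β a.1)⁻¹ = b := congrArg Subtype.val a.2
      rw [← h₀] at h1
      rw [map_mul, map_inv]
      calc (β a₀)⁻¹ * β a.1 = (a₀ : G)⁻¹ * (a₀ * (β a₀)⁻¹) * β a.1 := by group
        _ = (a₀ : G)⁻¹ * a.1 := by rw [← h1]; group
    · intro a a' h
      exact Subtype.ext (Subtype.ext (mul_left_cancel (congrArg Subtype.val h)))
  · haveI : IsEmpty {a : A // (⟨a * (β a)⁻¹, A.mul_mem a.2 (A.inv_mem (hA _ a.2)), by simp [hβ]⟩ :
        {x // x ∈ A ∧ β x = x⁻¹}) = b} := ⟨fun a => h ⟨a.1, congrArg Subtype.val a.2⟩⟩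
    simp

theorem card_inverted_sq_le [Fintype G] (β : G ≃* G) :
    Nat.card {x // β x = x⁻¹} ^ 2 ≤ ∑ x : G, Nat.card (centralizer ({x} : Set G)) := by
  classical
  let φ : {x // β x = x⁻¹} × {x // β x = x⁻¹} → G := fun p => p.1.1 * p.2.1⁻¹
  rw [sq, ← Nat.card_prod, ← Nat.card_congr (Equiv.sigmaFiberEquiv φ), Nat.card_sigma]
  refine Finset.sum_le_sum fun x _ => ?_
  have key : ∀ p : {p // φ p = x}, p.1.1.1 * β x * p.1.1.1⁻¹ = x⁻¹ := by
    rintro ⟨⟨⟨s, hs⟩, ⟨t, ht⟩⟩, rfl⟩
    simp [φ, hs, ht]
  by_cases h : Nonempty {p // φ p = x}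
  · obtain ⟨p₀⟩ := h
    refine Nat.card_le_card_of_injective (fun p => ⟨p.1.1.1 * p₀.1.1.1⁻¹, ?_⟩) ?_
    · rw [mem_centralizer_singleton_iff]
      have h1 := key p
      have h2 := key p₀
      have h3 : p.1.1.1 * p₀.1.1.1⁻¹ * x⁻¹ = x⁻¹ * (p.1.1.1 * p₀.1.1.1⁻¹) := by
        calc p.1.1.1 * p₀.1.1.1⁻¹ * x⁻¹ = p.1.1.1 * β x * p.1.1.1⁻¹ * (p.1.1.1 * p₀.1.1.1⁻¹) := by
              rw [← h2]; group
          _ = _ := by rw [h1]
      exact (Commute.inv_right_iff.1 h3).eq
    · rintro ⟨⟨s, t⟩, hp⟩ ⟨⟨s', t'⟩, hp'⟩ h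
      have h1 : s = s' := Subtype.ext (mul_right_cancel (congrArg Subtype.val h))
      subst h1
      have h2 : t = t' := Subtype.ext (inv_injective (mul_left_cancel (hp.trans hp'.symm)))
      subst h2
      rfl
  · rw [not_nonempty_iff] at h
    simp

/-- An involutory automorphism with at most `n` fixed points of a group generated by at most `m`
elements `t β(t)⁻¹`: the centre has bounded index. -/
theorem exists_index_center_le (m n : ℕ) : ∃ B : ℕ, ∀ (X : Type) [Group X] [Finite X]
    (β : X ≃* X) (S : Finset X), (∀ x, β (β x) = x) → closure (S : Set X) = ⊤ → S.card ≤ m →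
    (∀ s ∈ S, ∃ t, s = t * (β t)⁻¹) → Nat.card {x // β x = x} ≤ n → (center X).index ≤ B := by
  classical
  set b := 2 * n ^ 2 with hb
  set c := n * (b * b.factorial ^ (b.factorial ^ m)) with hc
  refine ⟨c * (c + 1) ^ m, ?_⟩
  intro X _ _ β S hβ hS hm hSt hn
  haveI := Fintype.ofFinite X
  have hN : 0 < Nat.card X := Nat.card_pos
  let X0 : Set X := {x | (centralizer ({x} : Set X)).index ≤ b}
  have h1 : Nat.card X ≤ Nat.card {x // β x = x⁻¹} * n := by
    have := card_le_card_inverted_mul β hβ ⊤ (fun _ _ => mem_top _)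
    rw [card_top] at this
    simp only [mem_top, true_and] at this
    exact this.trans (Nat.mul_le_mul_left _ hn)
  have h2 := card_inverted_sq_le β
  have h3 : b * ∑ x : X, Nat.card (centralizer ({x} : Set X)) ≤
      b * X0.ncard * Nat.card X + Nat.card X * Nat.card X := by
    rw [Finset.mul_sum]
    have : ∀ x : X, b * Nat.card (centralizer ({x} : Set X)) ≤
        (if x ∈ X0 then b * Nat.card X else 0) + Nat.card X := by
      intro x
      split_ifs with hx
      · exact (Nat.mul_le_mul_left _ (Subgroup.card_le_card_group _)).trans (Nat.le_add_right _ _)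
      · have hx' : b ≤ (centralizer ({x} : Set X)).index := (not_le.1 hx).le
        rw [zero_add, ← (centralizer ({x} : Set X)).card_mul_index, mul_comm]
        exact Nat.mul_le_mul_left _ hx'
    refine (Finset.sum_le_sum fun x _ => this x).trans ?_
    rw [Finset.sum_add_distrib, ← Finset.sum_filter, Finset.sum_const, Finset.sum_const,
      Finset.card_univ, ← Nat.card_eq_fintype_card, smul_eq_mul, smul_eq_mul]
    have : (Finset.univ.filter (· ∈ X0)).card = X0.ncard := by
      rw [Set.ncard_eq_toFinset_card']; simp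
    rw [this]
    apply le_of_eq; ring
  have h4 : Nat.card X ≤ b * X0.ncard := by
    have e1 : Nat.card X ^ 2 ≤ Nat.card {x // β x = x⁻¹} ^ 2 * n ^ 2 := by
      rw [← mul_pow]; exact Nat.pow_le_pow_left h1 2
    have e2 : Nat.card X * Nat.card X ≤ b * X0.ncard * Nat.card X := by
      have : 2 * Nat.card X ^ 2 ≤ b * ∑ x : X, Nat.card (centralizer ({x} : Set X)) := by
        rw [hb]; nlinarith
      nlinarith
    exact Nat.le_of_mul_le_mul_right e2 hN
  have hT : (closure X0).index ≤ b := by
    have e1 : X0.ncard ≤ Nat.card (closure X0) :=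
      Set.ncard_le_ncard (subset_closure (k := X0)) (Set.toFinite _)
    have e2 := (closure X0).card_mul_index
    have e3 : 0 < Nat.card (closure X0) := Nat.card_pos
    refine Nat.le_of_mul_le_mul_left ?_ e3
    rw [e2, mul_comm]
    exact h4.trans (Nat.mul_le_mul_left _ e1)
  obtain ⟨K, hK, hKle⟩ := exists_index_le_forall_le S hS hm b
  have hKC : K ≤ centralizer X0 := fun k hk x hx =>
    (mem_centralizer_singleton_iff.1 (hKle _ hx hk)).symm
  have hX0 : ∀ x ∈ X0, β x ∈ X0 := by
    intro x hx
    have : centralizer ({x} : Set X) = (centralizer ({β x} : Set X)).comap (β : X →* X) := by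
      ext y
      rw [mem_comap, mem_centralizer_singleton_iff, mem_centralizer_singleton_iff,
        ← β.injective.eq_iff]
      simp
    change (centralizer ({β x} : Set X)).index ≤ b
    rw [← index_comap_of_surjective _ (f := (β : X →* X)) β.surjective, ← this]
    exact hx
  let A := closure X0 ⊓ centralizer X0
  have hA : A.index ≤ b * b.factorial ^ (b.factorial ^ m) :=
    index_inf_le.trans (Nat.mul_le_mul hT ((index_antitone hKC).trans hK))
  have hAβ : ∀ x ∈ A, β x ∈ A := by
    intro x hx
    refine ⟨?_, fun y hy => ?_⟩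
    · have : closure X0 ≤ (closure X0).comap (β : X →* X) := by
        rw [closure_le]
        exact fun y hy => subset_closure (hX0 y hy)
      exact this hx.1
    · rw [← hβ y, ← map_mul, ← map_mul, hx.2 _ (hX0 y hy)]
  have hAc : ∀ x ∈ A, ∀ y ∈ A, x * y = y * x := by
    intro x hx y hy
    have : closure X0 ≤ centralizer ({y} : Set X) := by
      rw [closure_le]
      exact fun z hz => mem_centralizer_singleton_iff.2 (hy.2 z hz)
    exact mem_centralizer_singleton_iff.1 (this hx.1)
  let D : Subgroup X :=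
    { carrier := {x | x ∈ A ∧ β x = x⁻¹}
      mul_mem' := fun {x y} hx hy => ⟨A.mul_mem hx.1 hy.1, by
        rw [map_mul, hx.2, hy.2, hAc x hx.1 y hy.1, mul_inv_rev]⟩
      one_mem' := ⟨A.one_mem, by simp⟩
      inv_mem' := fun {x} hx => ⟨A.inv_mem hx.1, by rw [map_inv, hx.2]⟩ }
  have hD : D.index ≤ c := by
    have e1 : Nat.card A ≤ Nat.card D * n :=
      (card_le_card_inverted_mul β hβ A hAβ).trans (Nat.mul_le_mul_left _ hn)
    have e2 := D.card_mul_index
    have e3 := A.card_mul_index
    have e4 : 0 < Nat.card D := Nat.card_pos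
    refine Nat.le_of_mul_le_mul_left ?_ e4
    rw [e2, ← e3, hc, ← mul_assoc]
    exact Nat.mul_le_mul e1 hA
  choose t ht using hSt
  have hle : D ⊓ ⨅ s : S, D.map (MulAut.conj (t s.1 s.2) : X →* X) ≤ center X := by
    intro a ha
    have : closure (S : Set X) ≤ centralizer ({a} : Set X) := by
      rw [closure_le]
      intro s hs
      obtain ⟨d, hd, hda⟩ := mem_iInf.1 ha.2 ⟨s, hs⟩
      have hda' : t s hs * d * (t s hs)⁻¹ = a := hda
      have e1 : β a = a⁻¹ := ha.1.2
      have e2 : β d = d⁻¹ := hd.2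
      have e3 : a = β (t s hs) * d * (β (t s hs))⁻¹ := by
        apply inv_injective
        rw [← e1, ← hda']
        simp [e2, mul_assoc]
      rw [SetLike.mem_coe, mem_centralizer_singleton_iff, ht s hs]
      calc t s hs * (β (t s hs))⁻¹ * a = t s hs * d * (β (t s hs))⁻¹ := by
            conv_lhs => rw [e3]
            group
        _ = a * (t s hs * (β (t s hs))⁻¹) := by rw [← hda']; group
    rw [mem_center_iff]
    intro g
    exact mem_centralizer_singleton_iff.1 (this (hS ▸ mem_top g))
  refine (index_antitone hle).trans (index_inf_le.trans (Nat.mul_le_mul hD ?_))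
  refine (index_iInf_le _).trans ((Finset.prod_le_pow_card _ _ (c + 1) fun s _ => ?_).trans ?_)
  · rw [index_map_equiv]; omega
  · rw [Finset.card_univ, Fintype.card_coe]
    exact Nat.pow_le_pow_right (Nat.succ_pos c) hm

end Cfsg.Agent.H3
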