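import Cfsg.Agent.H3.BGroup

/-! Reduction of S3911 to the odd order theorem. -/

namespace Cfsg.Agent.H3

universe u

theorem s3911_of_FT
    (hFT : ∀ (G : Type u) [Group G] [Finite G], Odd (Nat.card G) → Group.IsSolvable G)
    {G : Type u} [Group G] [Finite G] (hB : ∀ A B : Subgroup G, IsMulCommutative ↥A → IsMulCommutative ↥B → Nat.card ↥A = Nat.card ↥B → ∃ g : G, B = A.map (MulAut.conj g).toMonoidHom) (M : Subgroup G) [M.Normal] (hM : Odd (Nat.card ↥M)) :
    ∀ A B : Subgroup (G ⧸ M), IsMulCommutative ↥A → IsMulCommutative ↥B → Nat.card ↥A = Nat.card ↥B →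
      ∃ g : G ⧸ M, B = A.map (MulAut.conj g).toMonoidHom :=
  BG.quotient hB M (hFT M hM) (Or.inl hM)

end Cfsg.Agent.H3
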