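import Cfsg.Agent.FT.Final
import Cfsg.Agent.H9.FrobKernel

/-! Normal subgroups whose non-central elements have maximal centralizers. -/

set_option autoImplicit false

namespace Cfsg.Agent.H3.MaxCent

open Subgroup Cfsg Cfsg.Agent
open scoped commutatorElement

variable {G : Type*} [Group G]

theorem mem_cent1 {x g : G} : g ∈ centralizer ({x} : Set G) ↔ Commute g x :=
  mem_centralizer_singleton_iff

theorem exists_abelian [Finite G] (N : Subgroup G) [hN : N.Normal] (h1 : N ≠ ⊥)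
    (h : ∀ x ∈ N, x ≠ 1 → IsCoatom (centralizer ({x} : Set G))) :
    ∃ A : Subgroup G, A.Normal ∧ A ≠ ⊥ ∧ A ≤ N ∧ Group.IsSolvable A := by
  by_cases ho : Odd (Nat.card N)
  · exact ⟨N, hN, h1, le_rfl, FT.feit_thompson _ ho⟩
  by_cases hc : ∃ x ∈ N, x ≠ 1 ∧ (zpowers x).Normal
  · obtain ⟨x, hx, hx1, hn⟩ := hc
    exact ⟨zpowers x, hn, by simpa using hx1, zpowers_le.2 hx,
      H1.isSolvable_of_isMulCommutative inferInstance⟩
  push Not at hc
  haveI : Fact (Nat.Prime 2) := ⟨Nat.prime_two⟩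
  obtain ⟨t, ht⟩ := exists_prime_orderOf_dvd_card' (G := N) 2
    (even_iff_two_dvd.1 (Nat.not_odd_iff_even.1 ho))
  rw [← Subgroup.orderOf_coe] at ht
  have key : ∀ s ∈ N, ∀ r ∈ N, s * s = 1 → r * r = 1 → s * r = r * s := by
    intro s hs r hr s2 r2
    have si : s⁻¹ = s := inv_eq_of_mul_eq_one_right s2
    have ri : r⁻¹ = r := inv_eq_of_mul_eq_one_right r2
    by_cases h0 : s * r = 1
    · rw [eq_inv_of_mul_eq_one_left h0, ri]
    have a1 : centralizer ({s * r} : Set G) ≤ normalizer (zpowers (s * r) : Set G) := by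
      rw [← FT.cent_zpowers]; exact FT.cent_le_norm _
    have a2 : s ∈ normalizer (zpowers (s * r) : Set G) := by
      rw [← H1.map_conj_eq_self_iff, MonoidHom.map_zpowers, ← zpowers_inv (g := s * r)]
      congr 1
      simp only [MulEquiv.coe_toMonoidHom, MulAut.conj_apply, mul_inv_rev, si, ri, ← mul_assoc, s2,
        one_mul]
    rcases ((h _ (mul_mem hs hr) h0).le_iff.1 a1) with e | e
    · exact absurd (normalizer_eq_top_iff.1 e) (hc _ (mul_mem hs hr) h0)
    · rw [e, mem_cent1] at a2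
      have := a2.eq
      rw [← mul_assoc, s2, one_mul] at this
      calc s * r = s * (s * r * s) := by rw [← this]
        _ = r * s := by rw [← mul_assoc, ← mul_assoc, s2, one_mul]
  have hs : ∀ s ∈ Group.conjugatesOfSet ({(t : G)} : Set G), s ∈ N ∧ s * s = 1 := by
    intro s hs
    obtain ⟨a, rfl, hs⟩ := Group.mem_conjugatesOfSet_iff.1 hs
    obtain ⟨c, rfl⟩ := isConj_iff.1 hs
    refine ⟨hN.conj_mem _ t.2 _, ?_⟩
    rw [← sq, conj_pow, ← ht, pow_orderOf_eq_one]; simp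
  refine ⟨normalClosure {(t : G)}, inferInstance, fun e => ?_,
    normalClosure_le_normal (by simp), H1.isSolvable_of_isMulCommutative ?_⟩
  · have : (t : G) ∈ normalClosure {(t : G)} := subset_normalClosure rfl
    rw [e, mem_bot] at this
    rw [this, orderOf_one] at ht
    exact absurd ht (by norm_num)
  · exact isMulCommutative_closure fun a ha b hb => key a (hs a ha).1 b (hs b hb).1 (hs a ha).2
      (hs b hb).2

theorem core [Finite G] (N : Subgroup G) [hN : N.Normal] (h1 : N ≠ ⊥)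
    (hZ : N ⊓ centralizer (N : Set G) = ⊥)
    (h : ∀ x ∈ N, x ≠ 1 → IsCoatom (centralizer ({x} : Set G))) :
    ∃ (K : Subgroup G) (p : ℕ), L.IsMinNormal K ∧ K ≤ N ∧ p.Prime ∧ IsElementaryAbelian p K ∧
      (K.relIndex N).Prime ∧ ∀ y ∈ N, y ∉ K → ∀ k ∈ K, y * k = k * y → k = 1 := by
  obtain ⟨A, hA, hA1, hAN, hs⟩ := exists_abelian N h1 h
  obtain ⟨K, p, hK, hKA, hp, he⟩ := L.exists_isMinNormal_isElementaryAbelian_le A hA1
  have hKN := hKA.trans hAN
  haveI hKn : K.Normal := hK.1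
  have hKK : K ≤ centralizer (K : Set G) := FT.isMulComm_iff_le_cent.1 he.1
  have a1 : ∀ y ∈ N, y ∉ centralizer (K : Set G) →
      K ⊔ centralizer ({y} : Set G) = ⊤ ∧ K ⊓ centralizer ({y} : Set G) = ⊥ := by
    intro y hy hyK
    have b1 : ¬ K ≤ centralizer ({y} : Set G) := fun e => hyK (FT.mem_cent_iff_cent1.2 e)
    have b2 : K ⊔ centralizer ({y} : Set G) = ⊤ :=
      (h y hy (by rintro rfl; exact hyK (one_mem _))).2 _ (right_lt_sup.2 b1)
    haveI : (K ⊓ centralizer ({y} : Set G)).Normal := by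
      rw [← normalizer_eq_top_iff, eq_top_iff, ← b2]
      exact sup_le ((hKK.trans (FT.cent_anti inf_le_left)).trans (FT.cent_le_norm _))
        (H1.le_normalizer_inf (by rw [normalizer_eq_top]; exact le_top) (FT.le_norm_self _))
    have b3 := (hK.inf_eq_bot_or_le (K ⊓ centralizer ({y} : Set G))).resolve_right
      fun e => b1 (e.trans inf_le_right)
    exact ⟨b2, by simpa using b3⟩
  obtain ⟨y, hy, hyK⟩ : ∃ y ∈ N, y ∉ centralizer (K : Set G) := by
    by_contra! hc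
    exact hK.2.1 (eq_bot_iff.2 (hZ ▸ le_inf hKN (FT.cent_comm.1 hc)))
  set D := N ⊓ centralizer (K : Set G) with hD
  have hKD : K ≤ D := le_inf hKN hKK
  have hn : ∀ R S : Subgroup G, R.Normal → S ≤ normalizer (R : Set G) := fun R S _ => by
    rw [normalizer_eq_top]; exact le_top
  have a2 : ∀ y ∈ N, y ∉ centralizer (K : Set G) → D = K ⊔ (centralizer ({y} : Set G) ⊓ D) := by
    intro y hy hyK
    rw [← FT.sup_inf_of_le_left (hn _ _ hKn) hKD, (a1 y hy hyK).1, top_inf_eq]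
  have a3 : ∀ y' ∈ N, y' ∉ centralizer (K : Set G) →
      centralizer ({y} : Set G) ⊓ D ≤ centralizer ({y'} : Set G) := by
    intro y' hy' hyK' t ht
    haveI hT : (centralizer ({y'} : Set G) ⊓ D).Normal := by
      rw [← normalizer_eq_top_iff, eq_top_iff, ← (a1 y' hy' hyK').1]
      exact sup_le ((FT.cent_comm.1 (inf_le_right.trans inf_le_right)).trans (FT.cent_le_norm _))
        (H1.le_normalizer_inf (FT.le_norm_self _) (hn _ _ inferInstance))
    have b1 : t ∈ D := ht.2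
    rw [a2 y' hy' hyK', H1.mem_sup_iff_of_le_normalizer (hn _ _ hT)] at b1
    obtain ⟨l, hl, t', ht', rfl⟩ := b1
    have b2 : ⁅l, y⁆ ∈ K := by
      rw [commutatorElement_def, mul_assoc, mul_assoc, ← mul_assoc y]
      exact mul_mem hl (hKn.conj_mem _ (inv_mem hl) _)
    have b3 : ⁅l, y⁆ = l * (y * t' * y⁻¹ * t'⁻¹) * l⁻¹ := by
      have := (mem_cent1.1 ht.1).eq
      calc ⁅l, y⁆ = l * y * l⁻¹ * y⁻¹ := rfl
        _ = l * (y * t') * (l * t')⁻¹ * y⁻¹ := by group
        _ = l * (y * t') * y⁻¹ * (l * t')⁻¹ := by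
          rw [mul_assoc _ (l * t')⁻¹, ← mul_inv_rev, ← this, mul_inv_rev, ← mul_assoc]
        _ = _ := by group
    have b4 : ⁅l, y⁆ ∈ centralizer ({y'} : Set G) := by
      rw [b3]
      exact (hT.conj_mem _ (mul_mem (hT.conj_mem _ ht' y) (inv_mem ht')) l).1
    have b5 : ⁅l, y⁆ = 1 := mem_bot.1 ((a1 y' hy' hyK').2 ▸ mem_inf.2 ⟨b2, b4⟩)
    have b6 : l = 1 := mem_bot.1 ((a1 y hy hyK).2 ▸ mem_inf.2
      ⟨hl, mem_cent1.2 (commutatorElement_eq_one_iff_commute.1 b5)⟩)
    rw [b6, one_mul]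
    exact ht'.1
  have a4 : centralizer ({y} : Set G) ⊓ D = ⊥ := by
    rw [eq_bot_iff, ← hZ]
    refine le_inf (inf_le_right.trans inf_le_left) fun t ht => mem_centralizer_iff.2 fun n hn => ?_
    by_cases hnK : n ∈ centralizer (K : Set G)
    · have b1 := mem_cent1.1 (a3 (n * y) (mul_mem hn hy)
        (fun e => hyK (by simpa using mul_mem (inv_mem hnK) e)) ht)
      have b2 := b1.mul_right (mem_cent1.1 ht.1).inv_right
      rw [mul_inv_cancel_right] at b2
      exact b2.eq.symm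
    · exact (mem_cent1.1 (a3 n hn hnK ht)).eq.symm
  have a5 : D = K := by rw [a2 y hy hyK, a4, sup_bot_eq]
  have a6 : ∀ y ∈ N, y ∉ K → y ∉ centralizer (K : Set G) := fun y hy h1 h2 =>
    h1 (a5 ▸ mem_inf.2 ⟨hy, h2⟩)
  have a7 : ∀ y ∈ N, y ∉ K → ∀ k ∈ K, y * k = k * y → k = 1 := fun y hy h1 k hk e =>
    mem_bot.1 ((a1 y hy (a6 y hy h1)).2 ▸ mem_inf.2 ⟨hk, mem_cent1.2 e.symm⟩)
  refine ⟨K, p, hK, hKN, hp, he, ?_, a7⟩
  obtain ⟨x, hx1⟩ := ne_bot_iff_exists_ne_one.1 hK.2.1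
  have hx1 : (x : G) ≠ 1 := fun e => hx1 (Subtype.ext e)
  have a8 : ∀ R : Subgroup G, K ≤ R → R ≤ N → R = K ∨ R = N := by
    intro R r1 r2
    have hR : R.Normal := ⟨fun n hn' g => by
      by_cases hnK : n ∈ K
      · exact r1 (hKn.conj_mem _ hnK g)
      have : g ∈ centralizer ({n} : Set G) ⊔ K := by
        rw [sup_comm, (a1 n (r2 hn') (a6 n (r2 hn') hnK)).1]; trivial
      obtain ⟨l, hl, c, hc, rfl⟩ := (H1.mem_sup_iff_of_le_normalizer' (hn _ _ hKn)).1 this
      rw [show l * c * n * (l * c)⁻¹ = l * (c * n * c⁻¹) * l⁻¹ by group, (mem_cent1.1 hc).eq,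
        mul_inv_cancel_right]
      exact mul_mem (mul_mem (r1 hl) hn') (inv_mem (r1 hl))⟩
    have b1 : centralizer ({(x : G)} : Set G) ⊓ N ≤ K := fun n hn' => by
      by_contra hnK
      exact hx1 (a7 n hn'.2 hnK x x.2 (mem_cent1.1 hn'.1).eq)
    by_cases b2 : R ≤ centralizer ({(x : G)} : Set G)
    · exact Or.inl (le_antisymm ((le_inf b2 r2).trans b1) r1)
    · refine Or.inr (le_antisymm r2 ?_)
      have b3 := (h x (hKN x.2) hx1).2 _ (right_lt_sup.2 b2)
      have b4 := FT.sup_inf_of_le_left (B := centralizer ({(x : G)} : Set G)) (hn _ _ hR) r2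
      rw [b3, top_inf_eq] at b4
      exact b4.le.trans (sup_le le_rfl (b1.trans r1))
  have a9 : K.relIndex N ≠ 1 := fun e => hyK (hKK (relIndex_eq_one.1 e hy))
  obtain ⟨q, hq, hd⟩ := Nat.exists_prime_and_dvd a9
  haveI := Fact.mk hq
  obtain ⟨z, hz⟩ := exists_prime_orderOf_dvd_card' (G := N ⧸ K.subgroupOf N) q hd
  have b1 := FT.relIndex_unbar (Y := N) (N := K) (zpowers z)
  rw [Nat.card_zpowers, hz] at b1
  rcases a8 _ (H1.le_unbar hKN (zpowers z)) (H1.unbar_le _) with e | e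
  · rw [e, relIndex_self] at b1
    exact absurd b1.symm hq.ne_one
  · rw [e] at b1
    rwa [b1]

theorem caseA [Finite G] (N : Subgroup G) [hN : N.Normal]
    (h : ∀ x ∈ N, x ∉ centralizer (N : Set G) → IsCoatom (centralizer ({x} : Set G)))
    {x u : G} (hx : x ∈ N) (hu : u ∈ N) (hc : ⁅x, u⁆ ∈ centralizer (N : Set G))
    (h1 : ¬ Commute x u) : ∃ p : ℕ, p.Prime ∧ (∀ a ∈ N, ∀ b ∈ N, ⁅a, b⁆ ∈ centralizer (N : Set G)) ∧
      ∀ a ∈ N, a ^ p ∈ centralizer (N : Set G) := by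
  set π := QuotientGroup.mk' (centralizer (N : Set G)) with hπ
  have hk : ∀ {g : G}, π g = 1 ↔ g ∈ centralizer (N : Set G) := QuotientGroup.eq_one_iff _
  have hcm : ∀ {a b : G}, Commute (π a) (π b) ↔ ⁅a, b⁆ ∈ centralizer (N : Set G) := by
    intro a b
    rw [← commutatorElement_eq_one_iff_commute, ← map_commutatorElement, hk]
  have hco : ∀ a ∈ N, ∀ b ∈ N, ¬ Commute a b → ∀ T : Subgroup G, centralizer ({a} : Set G) ≤ T →
      b ∈ T → T = ⊤ := by
    intro a ha b hb hab T h1 h2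
    refine (h a ha fun e => hab (mem_centralizer_iff.1 e b hb).symm).2 T (lt_of_le_of_ne h1 ?_)
    rintro rfl
    exact hab (mem_cent1.1 h2).symm
  have key1 : ∀ a ∈ N, ∀ b ∈ N, Commute (π a) (π b) → ¬ Commute a b → ∀ g, Commute (π a) (π g) := by
    intro a ha b hb h1 h2 g
    have := hco a ha b hb h2 ((centralizer {π a}).comap π)
      (fun c hc => mem_cent1.2 ((mem_cent1.1 hc).map π)) (mem_cent1.2 h1.symm)
    have hg : g ∈ (centralizer {π a}).comap π := this ▸ mem_top g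
    exact (mem_cent1.1 hg).symm
  have split : ∀ {x u : G}, ¬ Commute x u → ∀ v, Commute v x → ¬ Commute (v * u) x := by
    intro x u h1 v h2 h3
    have := h2.inv_left.mul_left h3
    rw [inv_mul_cancel_left] at this
    exact h1 this.symm
  have a1 := key1 x hx u hu (hcm.2 hc) h1
  have a2 : ∀ v ∈ N, ¬ Commute v x → ∀ g, Commute (π v) (π g) := fun v hv h2 =>
    key1 v hv x hx (a1 v).symm h2
  have a3 : ∀ v ∈ N, ∀ g, Commute (π v) (π g) := by
    intro v hv g
    by_cases h2 : Commute v x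
    · have := (a2 _ (mul_mem hv hu) (split h1 v h2) g).mul_left
        (a2 u hu (fun e => h1 e.symm) g).inv_left
      rwa [map_mul, mul_inv_cancel_right] at this
    · exact a2 v hv h2 g
  have a4 : ∀ a ∈ N, ∀ b ∈ N, ∀ n : ℕ, ⁅a ^ n, b⁆ = ⁅a, b⁆ ^ n := fun a ha b hb n =>
    H1.commutatorElement_pow_left_of_central
      (mem_centralizer_iff.1 (hcm.1 (a3 a ha b)) a ha) n
  have a5 : orderOf ⁅x, u⁆ ≠ 1 := by
    rw [Ne, orderOf_eq_one_iff, commutatorElement_eq_one_iff_commute]; exact h1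
  obtain ⟨p, hp, m, hm⟩ := Nat.exists_prime_and_dvd a5
  have hm0 : 0 < m := Nat.pos_of_ne_zero (by rintro rfl; exact (orderOf_pos _).ne' hm)
  have b1 : ¬ Commute (x ^ m) u := by
    rw [← commutatorElement_eq_one_iff_commute, a4 x hx u hu, ← orderOf_dvd_iff_pow_eq_one, hm]
    exact Nat.not_dvd_of_pos_of_lt hm0 (by nlinarith [hp.two_le])
  have key2 : ∀ a ∈ N, ∀ b ∈ N, ¬ Commute a b → Commute (a ^ p) b → ∀ g, Commute (a ^ p) g := by
    intro a ha b hb h1 h2 g
    have := hco a ha b hb h1 (centralizer {a ^ p})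
      (fun c hc => mem_cent1.2 ((mem_cent1.1 hc).pow_right p)) (mem_cent1.2 h2.symm)
    have hg : g ∈ centralizer {a ^ p} := this ▸ mem_top g
    exact (mem_cent1.1 hg).symm
  have hx' := pow_mem hx m
  have b2 := key2 _ hx' u hu b1 (by
    rw [← commutatorElement_eq_one_iff_commute, ← pow_mul, a4 x hx u hu, mul_comm, ← hm,
      pow_orderOf_eq_one])
  have b3 : ∀ v ∈ N, ¬ Commute v (x ^ m) → π v ^ p = 1 := by
    intro v hv h2
    rw [← map_pow, hk]
    refine mem_centralizer_iff.2 fun g _ => (key2 v hv _ hx' h2 ?_ g).eq.symm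
    rw [← commutatorElement_eq_one_iff_commute, a4 v hv _ hx', ← commutatorElement_inv, inv_pow,
      ← a4 _ hx' v hv, inv_eq_one, commutatorElement_eq_one_iff_commute]
    exact b2 v
  refine ⟨p, hp, fun a ha b _ => hcm.1 (a3 a ha b), fun v hv => ?_⟩
  rw [← hk, map_pow]
  by_cases h2 : Commute v (x ^ m)
  · have c1 := b3 _ (mul_mem hv hu) (split b1 v h2)
    rwa [map_mul, (a3 v hv u).mul_pow, b3 u hu (fun e => b1 e.symm), mul_one] at c1
  · exact b3 v hv h2

theorem caseB [Finite G] (N : Subgroup G) [hN : N.Normal]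
    (h : ∀ x ∈ N, x ∉ centralizer (N : Set G) → IsCoatom (centralizer ({x} : Set G)))
    (hB : ∀ x ∈ N, ∀ u ∈ N, ⁅x, u⁆ ∈ centralizer (N : Set G) → Commute x u)
    {X : Type*} [Group X] {π : G →* X} (hs : Function.Surjective π)
    (hk : π.ker = N ⊓ centralizer (N : Set G)) :
    N.map π ⊓ centralizer (N.map π : Set X) = ⊥ ∧
      ∀ x ∈ N.map π, x ≠ 1 → IsCoatom (centralizer ({x} : Set X)) := by
  have a1 : ∀ x ∈ N, ∀ u ∈ N, Commute (π x) (π u) → Commute x u := by
    intro x hx u hu e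
    rw [← commutatorElement_eq_one_iff_commute, ← map_commutatorElement, ← MonoidHom.mem_ker,
      hk] at e
    exact hB x hx u hu e.2
  have a2 : N.map π ⊓ centralizer (N.map π : Set X) = ⊥ := by
    rw [eq_bot_iff]
    rintro _ ⟨⟨x, hx, rfl⟩, hc⟩
    rw [mem_bot, ← MonoidHom.mem_ker, hk]
    exact ⟨hx, mem_centralizer_iff.2 fun u hu =>
      (a1 u hu x hx (mem_centralizer_iff.1 hc _ (mem_map_of_mem π hu))).eq⟩
  refine ⟨a2, ?_⟩
  rintro _ ⟨x, hx, rfl⟩ h1
  have b1 : x ∉ centralizer (N : Set G) := fun e => h1 (by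
    rw [← MonoidHom.mem_ker, hk]; exact ⟨hx, e⟩)
  have b2 : centralizer ({π x} : Set X) ≠ ⊤ := fun e => h1 (by
    rw [← mem_bot, ← a2]
    exact ⟨mem_map_of_mem π hx, mem_centralizer_iff.2 fun g _ =>
      (mem_cent1.1 (e ▸ mem_top g : g ∈ centralizer ({π x} : Set X))).eq⟩)
  have b3 : centralizer ({x} : Set G) ≤ (centralizer ({π x} : Set X)).comap π :=
    fun c hc => mem_cent1.2 ((mem_cent1.1 hc).map π)
  refine ⟨b2, fun T hT => ?_⟩
  have b4 : (centralizer ({π x} : Set X)).comap π < T.comap π :=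
    (comap_lt_comap_of_surjective hs).2 hT
  have := (h x hx b1).2 _ (b3.trans_lt b4)
  rw [← map_comap_eq_self_of_surjective hs T, this, map_top_of_surjective _ hs]

end Cfsg.Agent.H3.MaxCent
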