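import Mathlib
import Cfsg.Agent.H3.Metacyclic

/-! Metacyclic `p`-groups for odd `p`: class sizes, abelian subgroups and centralizers. -/

set_option autoImplicit false

namespace Cfsg.Agent.H3

open Subgroup

variable {p : ℕ} {G : Type*} [Group G]

namespace MetaData

variable [Finite G] (d : MetaData p G)

theorem index_center : (center G).index = (p ^ d.n) ^ 2 := by
  have h := d.card_group
  rw [← (center G).card_mul_index] at h
  exact Nat.eq_of_mul_eq_mul_left Nat.card_pos h

theorem index_commutator : (_root_.commutator G).index = Nat.card (center G) * p ^ d.n := by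
  have h := d.card_group
  rw [← (_root_.commutator G).card_mul_index, d.card_commutator, sq, ← mul_assoc, mul_comm] at h
  exact Nat.eq_of_mul_eq_mul_right (pow_pos d.prime.pos _) h

theorem index_pre (W : AddSubgroup (ZMod (p ^ d.n) × ZMod (p ^ d.n))) :
    (d.pre W).index = W.index := by
  have h := (d.pre W).card_mul_index
  rw [d.card_group, d.card_pre, ← card_zmod_prod, ← W.card_mul_index, mul_assoc] at h
  exact Nat.eq_of_mul_eq_mul_left Nat.card_pos (Nat.eq_of_mul_eq_mul_left Nat.card_pos h)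

theorem index_centralizer (g : G) : (centralizer ({g} : Set G)).index = addOrderOf (d.φ g) := by
  rw [centralizer_singleton_eq, index_pre, index_zperp, Nat.card_zmultiples]

omit [Finite G] in
theorem exists_addOrderOf_eq (v : ZMod (p ^ d.n) × ZMod (p ^ d.n)) :
    ∃ k ≤ d.n, addOrderOf v = p ^ k := by
  rw [← Nat.dvd_prime_pow d.prime, addOrderOf_dvd_iff_nsmul_eq_zero]
  rw [← Nat.cast_smul_eq_nsmul (ZMod (p ^ d.n)), ZMod.natCast_self, zero_smul]

theorem index_centralizer_le_iff (g : G) (k : ℕ) :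
    (centralizer ({g} : Set G)).index ≤ p ^ k ↔ p ^ k • d.φ g = 0 := by
  obtain ⟨j, -, hj⟩ := d.exists_addOrderOf_eq (d.φ g)
  rw [index_centralizer, ← addOrderOf_dvd_iff_nsmul_eq_zero, hj,
    Nat.pow_le_pow_iff_right d.prime.one_lt, Nat.pow_dvd_pow_iff_le_right d.prime.one_lt]

omit [Finite G] in
theorem mem_closure_pow_iff {s : ℕ} (hs : s ≤ d.n) (g : G) :
    g ∈ closure {x : G | ∃ y : G, y ^ p ^ s = x} ↔ p ^ (d.n - s) • d.φ g = 0 := by
  have hp0 : (p : ℤ) ≠ 0 := by exact_mod_cast d.prime.ne_zero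
  have key : ∀ m : ℤ, p ^ (d.n - s) • (m : ZMod (p ^ d.n)) = 0 ↔ (p : ℤ) ^ s ∣ m := by
    intro m
    rw [nsmul_eq_mul, ← Int.cast_natCast, ← Int.cast_mul, ZMod.intCast_zmod_eq_zero_iff_dvd]
    push_cast
    conv_lhs => lhs; rw [← Nat.sub_add_cancel hs, pow_add]
    exact mul_dvd_mul_iff_left (pow_ne_zero _ hp0)
  constructor
  · intro hg
    have : closure {x : G | ∃ y : G, y ^ p ^ s = x} ≤
        d.pre (nsmulAddMonoidHom (p ^ (d.n - s))).ker := by
      rw [closure_le]
      rintro _ ⟨y, rfl⟩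
      change p ^ (d.n - s) • d.φ (y ^ p ^ s) = 0
      rw [φ_pow, ← smul_assoc, (key _).2
        ((pow_dvd_gs_iff d.prime d.odd (d.dvd_ρ y) s _).2 dvd_rfl), zero_smul]
    exact this hg
  · intro h
    obtain ⟨i, hi⟩ := (key _).1 (congrArg Prod.fst h)
    obtain ⟨j, hj⟩ := (pow_dvd_gs_iff d.prime d.odd d.dvd s _).1 ((key _).1 (congrArg Prod.snd h))
    rw [d.spec g, hi, hj]
    refine mul_mem (subset_closure ⟨d.a ^ i, ?_⟩) (subset_closure ⟨d.b ^ j, ?_⟩)
    · rw [← zpow_natCast, ← zpow_mul, mul_comm]; push_cast; rfl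
    · rw [← pow_mul, mul_comm]

omit [Finite G] in
theorem closure_pow_eq_center : closure {x : G | ∃ y : G, y ^ p ^ d.n = x} = center G := by
  ext g
  rw [d.mem_closure_pow_iff le_rfl, ← d.φ_eq_zero_iff]
  simp

omit [Finite G] in
theorem exists_zdet_ne_zero {R : Subgroup G} (h : ¬ IsMulCommutative R) :
    ∃ u ∈ d.img R, ∃ v ∈ d.img R, zdet u v ≠ 0 := by
  rw [d.isMulCommutative_iff] at h
  push Not at h
  exact h

include d in
theorem center_le_of_not_isMulCommutative (hG : IsPGroup p G) {R : Subgroup G}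
    (h : ¬ IsMulCommutative R) : center G ≤ R := by
  obtain ⟨u, hu, v, hv, huv⟩ := d.exists_zdet_ne_zero h
  have hn : d.n ≠ 0 := by
    intro h0
    apply huv
    have : Subsingleton (ZMod (p ^ d.n)) := by rw [h0, pow_zero]; infer_instance
    exact Subsingleton.elim _ _
  let T : Subgroup G :=
    { carrier := {z | z ∈ center G ∧ ∃ w ∈ center G, z * w ^ p ∈ R}
      one_mem' := ⟨one_mem _, 1, one_mem _, by simp⟩
      mul_mem' := by
        rintro x y ⟨hx, w, hw, hxw⟩ ⟨hy, w', hw', hyw⟩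
        refine ⟨mul_mem hx hy, w * w', mul_mem hw hw', ?_⟩
        convert R.mul_mem hxw hyw using 1
        rw [Commute.mul_pow (mem_center_iff.1 hw' w), mul_assoc, mul_assoc, ← mul_assoc y,
          mem_center_iff.1 (pow_mem hw p) y, mul_assoc]
      inv_mem' := by
        rintro x ⟨hx, w, hw, hxw⟩
        refine ⟨inv_mem hx, w⁻¹, inv_mem hw, ?_⟩
        convert R.inv_mem hxw using 1
        rw [mul_inv_rev, inv_pow, mem_center_iff.1 (inv_mem hx)] }
  have h1 : center G ≤ T := by
    conv_lhs => rw [← d.closure_pow_eq_center]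
    rw [closure_le]
    rintro _ ⟨y, rfl⟩
    refine ⟨d.closure_pow_eq_center ▸ subset_closure ⟨y, rfl⟩, ?_⟩
    obtain ⟨t, ht⟩ := (pow_dvd_gs_iff d.prime d.odd (d.dvd_ρ y) (d.n - 1) _).2 dvd_rfl
    have h2 : d.φ (y ^ p ^ (d.n - 1)) ∈ d.img R := by
      rw [φ_pow, ht]
      push_cast
      rw [mul_smul]
      exact pow_smul_mem_of_zdet_ne_zero d.prime rfl hu hv huv _
    obtain ⟨x, hx, hxy⟩ := h2
    have hz := (d.φ_eq_iff _ _).1 hxy.symm
    refine ⟨_, hz, ?_⟩
    convert R.pow_mem hx p using 1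
    conv_rhs => rw [← mul_inv_cancel_left (y ^ p ^ (d.n - 1)) x,
      Commute.mul_pow (mem_center_iff.1 hz _), ← pow_mul, ← pow_succ,
      Nat.sub_add_cancel (Nat.one_le_iff_ne_zero.2 hn)]
  have h2 : ∀ k : ℕ, ∀ z ∈ center G, ∃ w ∈ center G, z * w ^ p ^ k ∈ R := by
    intro k
    induction k with
    | zero => exact fun z hz => ⟨z⁻¹, inv_mem hz, by simp⟩
    | succ k ih =>
      intro z hz
      obtain ⟨w, hw, hzw⟩ := ih z hz
      obtain ⟨-, w', hw', hww⟩ := h1 hw
      refine ⟨w'⁻¹, inv_mem hw', ?_⟩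
      convert R.mul_mem hzw (R.inv_mem (R.pow_mem hww (p ^ k))) using 1
      rw [Commute.mul_pow (mem_center_iff.1 (pow_mem hw' p) w), ← pow_mul, ← pow_succ', inv_pow,
        mem_center_iff.1 (pow_mem hw' _) (w ^ p ^ k)]
      group
  haveI := Fact.mk d.prime
  obtain ⟨k, hk⟩ := hG.exists_card_eq
  intro z hz
  obtain ⟨w, -, hw⟩ := h2 k z hz
  rwa [← hk, pow_card_eq_one', mul_one] at hw

theorem card_le_of_isMulCommutative {L : Subgroup G} (h : IsMulCommutative L) :
    Nat.card L ≤ Nat.card (center G) * p ^ d.n := by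
  rw [d.card_eq L]
  refine Nat.mul_le_mul (card_le_of_le inf_le_right) (card_le_of_le_zperp fun v hv u hu => ?_)
  exact (d.isMulCommutative_iff L).1 h u hu v hv

theorem lt_card_of_not_isMulCommutative (hG : IsPGroup p G) {L : Subgroup G}
    (h : ¬ IsMulCommutative L) : Nat.card (center G) * p ^ d.n < Nat.card L := by
  obtain ⟨u, hu, v, hv, huv⟩ := d.exists_zdet_ne_zero h
  rw [d.card_eq L, inf_eq_right.2 (d.center_le_of_not_isMulCommutative hG h)]
  exact Nat.mul_lt_mul_of_pos_left (lt_card_of_zdet_ne_zero d.prime rfl hu hv huv) Nat.card_pos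

theorem card_mul_card_centralizer (R : Subgroup G) :
    Nat.card R * Nat.card (centralizer (R : Set G)) =
      Nat.card (R ⊓ center G : Subgroup G) * (Nat.card (center G) * (p ^ d.n) ^ 2) := by
  rw [d.centralizer_eq, d.card_pre, d.card_eq R, ← card_mul_card_zperp (d.img R)]
  ring

theorem maximal_iff (L : Subgroup G) :
    Maximal (fun K : Subgroup G => IsMulCommutative K) L ↔
      IsMulCommutative L ∧ Nat.card L = Nat.card (center G) * p ^ d.n := by
  constructor
  · intro h
    refine ⟨h.prop, ?_⟩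
    have h1 : centralizer (L : Set G) = L := by
      refine le_antisymm (fun x hx => ?_) (le_centralizer_iff_isMulCommutative.2 h.prop)
      exact h.le_of_ge (isMulCommutative_sup_zpowers h.prop hx) le_sup_left
        (mem_sup_right (mem_zpowers x))
    have h2 := d.card_mul_card_centralizer L
    rw [h1, inf_eq_right.2 ((center_le_centralizer _).trans h1.le)] at h2
    refine Nat.mul_self_inj.1 (h2.trans ?_)
    ring
  · rintro ⟨h1, h2⟩
    refine ⟨h1, fun K hK hLK => ?_⟩
    exact (eq_of_le_of_card_ge hLK (h2 ▸ d.card_le_of_isMulCommutative hK)).ge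

omit [Finite G] in
include d in
theorem centralizer_le_of_not_isMulCommutative {R : Subgroup G} (hZ : center G ≤ R)
    (h : ¬ IsMulCommutative R) : centralizer (R : Set G) ≤ R := by
  obtain ⟨u, hu, v, hv, huv⟩ := d.exists_zdet_ne_zero h
  rw [d.centralizer_eq]
  conv_rhs => rw [← d.pre_img hZ]
  exact d.pre_mono (zperp_le_of_zdet_ne_zero d.prime rfl hu hv huv)

omit [Finite G] in
include d in
theorem centralizer_centralizer {K : Subgroup G} (hZ : center G ≤ K) :
    centralizer ((centralizer (K : Set G) : Subgroup G) : Set G) = K := by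
  rw [d.centralizer_eq K, d.centralizer_eq, img_pre, zperp_zperp, d.pre_img hZ]

end MetaData

theorem card_center_subgroup (R : Subgroup G) :
    Nat.card (center R) = Nat.card (R ⊓ centralizer (R : Set G) : Subgroup G) := by
  refine Nat.card_congr ⟨fun z => ⟨z.1.1, z.1.2, fun y hy =>
    congrArg Subtype.val (mem_center_iff.1 z.2 ⟨y, hy⟩)⟩,
    fun z => ⟨⟨z.1, z.2.1⟩, mem_center_iff.2 fun y => Subtype.ext (z.2.2 y.1 y.2)⟩,
    fun z => rfl, fun z => rfl⟩

end Cfsg.Agent.H3
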